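import Cfsg.Agent.H940.EngData
import Cfsg.Agent.Lib.ElemAbGL
import Cfsg.Prelude.Def_CaseTheorems

/-!
# `Fi23` with trivial centralizer is a maximal subgroup of `B`, abstractly (helper843)
-/

set_option autoImplicit false

namespace Cfsg.Agent.H843.FiMax

open Subgroup Cfsg Cfsg.Agent.OrdDiv Cfsg.Agent.H940.Eng Cfsg.Agent.H940.Eng.D
open scoped commutatorElement

/-! ### Numbers -/

/-- `|B| / |Fi23|` -/
def cc : ℕ := 1015970529280000

def l_cc : List (ℕ × ℕ) := [(2, 23), (5, 4), (7, 1), (19, 1), (31, 1), (47, 1)]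

theorem v_cc : valid l_cc cc = true := by decide +kernel

theorem cc_mul : n_fi23 * cc = n_b := by decide +kernel

theorem no_div : ∀ s ∈ o_b, ¬ s ∣ cc := by
  have h : (o_b.all fun s => cc % s != 0) = true := by decide +kernel
  rw [List.all_eq_true] at h
  intro s hs hd
  have h1 := h s hs
  rw [bne_iff_ne] at h1
  exact h1 (Nat.mod_eq_zero_of_dvd hd)

theorem big : ∀ s ∈ o_b, n_fi23 ∣ s → s = n_fi23 ∨ s = n_b := by
  have h : (o_b.all fun s => s % n_fi23 != 0 || s == n_fi23 || s == n_b) = true := by decide +kernel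
  rw [List.all_eq_true] at h
  intro s hs hd
  have h1 := h s hs
  rw [Bool.or_eq_true, Bool.or_eq_true, bne_iff_ne, beq_iff_eq, beq_iff_eq] at h1
  rcases h1 with (h1 | h1) | h1
  · exact absurd (Nat.mod_eq_zero_of_dvd hd) h1
  · exact Or.inl h1
  · exact Or.inr h1

/-- the order of `GL_k(q)` -/
def glp (q k : ℕ) : ℕ := ((List.range k).map fun i => q ^ k - q ^ i).prod

theorem glp_eq (q k : ℕ) : (∏ i : Fin k, (q ^ k - q ^ (i : ℕ))) = glp q k := by
  rw [glp, Fin.prod_univ_eq_prod_range (fun i => q ^ k - q ^ i) k, Finset.prod_eq_multiset_prod]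
  rfl

theorem chk : (l_cc.all fun x => (List.range (x.2 + 1)).all fun k =>
    (x.1 == 2 && Nat.blt 14 k) || glp x.1 k % n_fi23 != 0) = true := by decide +kernel

theorem gl_num {q k : ℕ} (hq : q.Prime) (hk : 1 ≤ k) (hd : q ^ k ∣ cc) (h2 : q = 2 → k ≤ 14) :
    ¬ n_fi23 ∣ ∏ i : Fin k, (q ^ k - q ^ (i : ℕ)) := by
  intro h
  obtain ⟨e, he, hke⟩ := exists_pair v_cc hq hk hd
  have h3 := List.all_eq_true.1 (List.all_eq_true.1 chk _ he) k (List.mem_range.2 (by show k < e + 1; omega))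
  rw [Bool.or_eq_true, Bool.and_eq_true, beq_iff_eq, bne_iff_ne, Nat.blt_eq] at h3
  rcases h3 with h3 | h3
  · exact absurd (h2 h3.1) (not_le.2 h3.2)
  · rw [glp_eq] at h
    exact h3 (Nat.mod_eq_zero_of_dvd h)

/-! ### Solvability -/

theorem solvable_of (ho : Ords.{0} n_b o_b) : ∀ (n : ℕ) (H : Type) [Group H] [Finite H], Nat.card H = n →
    Nat.card H ∣ cc → Group.IsSolvable H := by
  intro n
  induction n using Nat.strong_induction_on with
  | _ n ih =>
    intro H _ _ hn hd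
    by_cases h1 : Nat.card H = 1
    · have : Subsingleton H := (Nat.card_eq_one_iff_unique.1 h1).1
      infer_instance
    have hnt : Nontrivial H := by
      rw [← Finite.one_lt_card_iff_nontrivial]
      have : 0 < Nat.card H := Nat.card_pos
      omega
    by_cases hs : IsSimpleGroup H
    · by_contra hns
      have hna : ¬ ∀ a b : H, a * b = b * a := fun h => hns (Group.isSolvable_of_comm h)
      exact no_div _ (ho H hs hna (hd.trans (Dvd.intro_left _ cc_mul))) hd
    · obtain ⟨N, hN, hb, ht⟩ : ∃ N : Subgroup H, N.Normal ∧ N ≠ ⊥ ∧ N ≠ ⊤ := by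
        by_contra hcon
        apply hs
        refine { eq_bot_or_eq_top_of_normal := fun N hN => ?_ }
        by_contra h
        push Not at h
        exact hcon ⟨N, hN, h.1, h.2⟩
      have hmul := N.card_mul_index
      have hi : N.index ≠ 1 := fun h => ht (index_eq_one.1 h)
      have hc : Nat.card N ≠ 1 := fun h => hb (card_eq_one.1 h)
      have hpos : 0 < Nat.card N := Nat.card_pos
      have hpos2 : 0 < N.index := Nat.pos_of_ne_zero index_ne_zero_of_finite
      have s1 : Group.IsSolvable N := ih (Nat.card N) (by rw [← hn, ← hmul]; nlinarith [show 2 ≤ N.index by omega]) N rfl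
        ((card_subgroup_dvd_card N).trans hd)
      have s2 : Group.IsSolvable (H ⧸ N) := ih (Nat.card (H ⧸ N)) (by
        rw [← hn, ← hmul]; rw [← index_eq_card]; nlinarith [show 2 ≤ Nat.card N by omega]) (H ⧸ N) rfl
        ((card_quotient_dvd_card N).trans hd)
      exact Group.isSolvable_of_ker_le_range N.subtype (QuotientGroup.mk' N) (by
        rw [QuotientGroup.ker_mk', N.range_subtype])

variable {G : Type} [Group G] [Finite G] (hcard : Nat.card G = n_b) (ho : Ords.{0} n_b o_b) (hr : PRankLE 2 14 G)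
  {K : Subgroup G} (hKs : IsSimpleGroup K) (hKc : Nat.card K = n_fi23)
  (hC : centralizer (K : Set G) = ⊥)

/-- conjugation on an invariant subgroup -/
def cj (E : Subgroup G) (hE : ∀ k ∈ K, ∀ x ∈ E, k * x * k⁻¹ ∈ E) : ↥K →* MulAut ↥E where
  toFun k :=
    { toFun := fun x => ⟨k * x * (k : G)⁻¹, hE k k.2 x x.2⟩
      invFun := fun x => ⟨(k : G)⁻¹ * x * k, by
        have h := hE (k : G)⁻¹ (K.inv_mem k.2) x x.2
        rwa [inv_inv] at h⟩
      left_inv := fun x => Subtype.ext (by show (k : G)⁻¹ * (k * x * (k : G)⁻¹) * k = x; group)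
      right_inv := fun x => Subtype.ext (by show (k : G) * ((k : G)⁻¹ * x * k) * (k : G)⁻¹ = x; group)
      map_mul' := fun x y => Subtype.ext (by
        show (k : G) * (x * y) * (k : G)⁻¹ = k * x * (k : G)⁻¹ * (k * y * (k : G)⁻¹); group) }
  map_one' := by
    ext x
    show (1 : G) * x * (1 : G)⁻¹ = x
    group
  map_mul' k l := by
    ext x
    show ((k : G) * l) * x * ((k : G) * l)⁻¹ = k * (l * x * (l : G)⁻¹) * (k : G)⁻¹
    group

omit [Finite G] in
/-- the order of the product -/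
theorem card_mul_dvd (E : Subgroup G) (hE : ∀ k ∈ K, ∀ x ∈ E, k * x * k⁻¹ ∈ E) (hd : K ⊓ E = ⊥) :
    Nat.card K * Nat.card E ∣ Nat.card G := by
  let f : ↥E ⋊[cj E hE] ↥K →* G := SemidirectProduct.lift E.subtype K.subtype (fun k => by
    ext x
    rfl)
  have hf : Function.Injective f := by
    rw [injective_iff_map_eq_one]
    rintro ⟨e, k⟩ h
    have h1 : (e : G) * (k : G) = 1 := h
    have h2 : (k : G) ∈ K ⊓ E := ⟨k.2, by rw [eq_inv_of_mul_eq_one_right h1]; exact E.inv_mem e.2⟩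
    rw [hd, mem_bot] at h2
    rw [h2, mul_one] at h1
    have h3 : e = 1 := Subtype.ext h1
    have h4 : k = 1 := Subtype.ext h2
    rw [h3, h4]
    rfl
  have h := card_dvd_of_injective f hf
  rwa [SemidirectProduct.card, mul_comm] at h

include hcard ho hr hKs hKc hC

/-- **A nontrivial subgroup normalized by `K` contains `K`.** -/
theorem le_of_inv (M : Subgroup G) (hM : ∀ k ∈ K, ∀ x ∈ M, k * x * k⁻¹ ∈ M) (hb : M ≠ ⊥) : K ≤ M := by
  have hn : (M.subgroupOf K).Normal := ⟨fun x hx k => by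
    rw [mem_subgroupOf] at hx ⊢
    exact hM k k.2 _ hx⟩
  rcases hKs.eq_bot_or_eq_top_of_normal _ hn with h1 | h1
  swap
  · rwa [subgroupOf_eq_top] at h1
  exfalso
  -- a minimal invariant subgroup
  obtain ⟨E, ⟨hE1, hE2, hE3⟩, hmin⟩ : ∃ E : Subgroup G, (E ≤ M ∧ E ≠ ⊥ ∧ ∀ k ∈ K, ∀ x ∈ E, k * x * k⁻¹ ∈ E) ∧
      ∀ F : Subgroup G, (F ≤ M ∧ F ≠ ⊥ ∧ ∀ k ∈ K, ∀ x ∈ F, k * x * k⁻¹ ∈ F) → Nat.card E ≤ Nat.card F := by
    obtain ⟨E, hE, hmin⟩ := Set.exists_min_image {E : Subgroup G | E ≤ M ∧ E ≠ ⊥ ∧ ∀ k ∈ K, ∀ x ∈ E, k * x * k⁻¹ ∈ E}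
      (fun E => Nat.card E) (Set.toFinite _) ⟨M, le_rfl, hb, hM⟩
    exact ⟨E, hE, fun F hF => hmin F hF⟩
  have hEeq : ∀ F : Subgroup G, F ≤ E → F ≠ ⊥ → (∀ k ∈ K, ∀ x ∈ F, k * x * k⁻¹ ∈ F) → F = E := fun F h2 h3 h4 =>
    eq_of_le_of_card_ge h2 (hmin F ⟨h2.trans hE1, h3, h4⟩)
  -- the order of `E`
  have hdisj : K ⊓ E = ⊥ := by
    rw [eq_bot_iff]
    intro x hx
    have h2 : (⟨x, hx.1⟩ : K) ∈ M.subgroupOf K := mem_subgroupOf.2 (hE1 hx.2)
    rw [h1, mem_bot] at h2
    exact mem_bot.2 (congrArg Subtype.val h2)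
  have hnorm : K ≤ normalizer (E : Set G) := by
    intro k hk
    rw [mem_normalizer_iff]
    intro x
    refine ⟨hE3 k hk x, fun hx => ?_⟩
    have h2 := hE3 k⁻¹ (K.inv_mem hk) _ hx
    have h3 : k⁻¹ * (k * x * k⁻¹) * k⁻¹⁻¹ = x := by group
    rwa [h3] at h2
  have hEc : Nat.card E ∣ cc := by
    have h3 : Nat.card K * Nat.card E ∣ n_b := by
      rw [← hcard]
      exact card_mul_dvd E hE3 hdisj
    rw [hKc, ← cc_mul] at h3
    exact Nat.dvd_of_mul_dvd_mul_left (by decide +kernel) h3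
  have hsolv := solvable_of ho _ E rfl hEc
  have hcj : ∀ (k : ↥K) (x : ↥E), ((cj E hE3 k x : ↥E) : G) = k * x * (k : G)⁻¹ := fun _ _ => rfl
  -- `E` is abelian
  have hab : ∀ a ∈ E, ∀ b ∈ E, a * b = b * a := by
    have hnt : Nontrivial ↥E := (nontrivial_iff_ne_bot E).2 hE2
    have hC1 : (commutator ↥E).map E.subtype = ⊥ := by
      by_contra hne
      have h2 := hEeq ((commutator ↥E).map E.subtype) (map_subtype_le _) hne (by
        rintro k hk _ ⟨y, hy, rfl⟩
        refine ⟨cj E hE3 ⟨k, hk⟩ y, ?_, rfl⟩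
        have h3 := characteristic_iff_map_eq.1 (inferInstance : (commutator ↥E).Characteristic) (cj E hE3 ⟨k, hk⟩)
        have h4 : cj E hE3 ⟨k, hk⟩ y ∈ (commutator ↥E).map (cj E hE3 ⟨k, hk⟩).toMonoidHom := ⟨y, hy, rfl⟩
        rw [h3] at h4
        exact h4)
      have h3 : commutator ↥E = ⊤ := by
        rw [eq_top_iff]
        rintro x -
        have h4 : (x : G) ∈ (commutator ↥E).map E.subtype := by rw [h2]; exact x.2
        obtain ⟨y, hy, hyx⟩ := h4
        have h5 : y = x := Subtype.ext hyx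
        rw [← h5]
        exact hy
      exact (Group.IsSolvable.commutator_lt_top_of_nontrivial ↥E).ne h3
    rw [map_eq_bot_iff_of_injective _ E.subtype_injective] at hC1
    intro a ha b hb
    have h2 : ⁅(⟨a, ha⟩ : ↥E), (⟨b, hb⟩ : ↥E)⁆ ∈ commutator ↥E := commutator_mem_commutator (mem_top _) (mem_top _)
    rw [hC1, mem_bot, commutatorElement_eq_one_iff_mul_comm] at h2
    exact congrArg Subtype.val h2
  -- `E` is elementary abelian
  have hE1' : Nat.card E ≠ 1 := fun h => hE2 (card_eq_one.1 h)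
  obtain ⟨r, hrp, hrd⟩ := Nat.exists_prime_and_dvd hE1'
  have hfr : Fact r.Prime := ⟨hrp⟩
  have hpow : ∀ x ∈ E, x ^ r = 1 := by
    let F : Subgroup G :=
      { carrier := {x | x ∈ E ∧ x ^ r = 1}
        one_mem' := ⟨E.one_mem, one_pow _⟩
        mul_mem' := by
          rintro a b ⟨ha, ha1⟩ ⟨hb, hb1⟩
          refine ⟨E.mul_mem ha hb, ?_⟩
          rw [(show Commute a b from hab a ha b hb).mul_pow, ha1, hb1, one_mul]
        inv_mem' := by
          rintro a ⟨ha, ha1⟩
          exact ⟨E.inv_mem ha, by rw [inv_pow, ha1, inv_one]⟩ }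
    have hF : F = E := by
      apply hEeq F (fun x hx => hx.1)
      · obtain ⟨y, hy⟩ := exists_prime_orderOf_dvd_card' r hrd
        intro hb
        have h2 : (y : G) ∈ F := ⟨y.2, by
          have h3 : y ^ r = 1 := by rw [← hy, pow_orderOf_eq_one]
          exact congrArg Subtype.val h3⟩
        rw [hb, mem_bot] at h2
        have h3 : y = 1 := Subtype.ext h2
        rw [h3, orderOf_one] at hy
        exact hrp.one_lt.ne hy
      · rintro k hk x ⟨hx, hx1⟩
        refine ⟨hE3 k hk x hx, ?_⟩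
        rw [conj_pow, hx1, mul_one, mul_inv_cancel]
    intro x hx
    rw [← hF] at hx
    exact hx.2
  have hpg : IsPGroup r ↥E := fun x => ⟨1, by
    rw [pow_one]
    exact Subtype.ext (hpow x x.2)⟩
  obtain ⟨k, hk⟩ := IsPGroup.iff_card.1 hpg
  have hk1 : 1 ≤ k := by
    by_contra hk0
    have h2 : k = 0 := by omega
    rw [h2, pow_zero] at hk
    exact hE1' hk
  have hcomm : IsMulCommutative ↥E := ⟨⟨fun a b => Subtype.ext (hab a a.2 b b.2)⟩⟩
  have h14 : r = 2 → k ≤ 14 := by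
    rintro rfl
    have h2 := hr E hcomm hpow
    rw [hk] at h2
    exact (Nat.pow_le_pow_iff_right (by norm_num)).1 h2
  -- the action of `K` on `E`
  rcases hKs.eq_bot_or_eq_top_of_normal (cj E hE3).ker inferInstance with h2 | h2
  · have hinj : Function.Injective (cj E hE3) := (MonoidHom.ker_eq_bot_iff _).1 h2
    let _ : CommGroup ↥E := { (inferInstance : Group ↥E) with
      mul_comm := fun a b => Subtype.ext (hab a a.2 b b.2) }
    obtain ⟨f⟩ := Cfsg.Agent.Lib.ElemAbGL.mulAut_equiv_GL (V := ↥E) r k (fun x => Subtype.ext (hpow x x.2)) hk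
    have hfin : Finite (MulAut ↥E) := Finite.of_injective (fun φ : MulAut ↥E => (φ : ↥E → ↥E)) DFunLike.coe_injective
    have h3 := card_dvd_of_injective (cj E hE3) hinj
    rw [Nat.card_congr f.toEquiv, Matrix.card_GL_field, ZMod.card, hKc] at h3
    exact gl_num hrp hk1 (by rw [← hk]; exact hEc) h14 h3
  · apply hE2
    rw [eq_bot_iff, ← hC]
    intro x hx
    rw [mem_centralizer_iff]
    intro y hy
    have h3 : (⟨y, hy⟩ : ↥K) ∈ (cj E hE3).ker := by rw [h2]; exact mem_top _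
    rw [MonoidHom.mem_ker] at h3
    have h4 : y * x * y⁻¹ = x := by
      have h5 := congrArg (fun φ : MulAut ↥E => ((φ ⟨x, hx⟩ : ↥E) : G)) h3
      exact h5
    calc y * x = y * x * y⁻¹ * y := by group
      _ = x * y := by rw [h4]

/-- **`K` is maximal.** -/
theorem coatom_abs (hinn : ∀ φ : MulAut ↥K, ∃ k : ↥K, φ = MulAut.conj k) : IsCoatom K := by
  have hna : ∃ a ∈ K, ∃ b ∈ K, a * b ≠ b * a := by
    by_contra hcon
    push Not at hcon
    have h1 : K ≤ centralizer (K : Set G) := fun a ha => mem_centralizer_iff.2 fun b hb => hcon b hb a ha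
    rw [hC, le_bot_iff] at h1
    rw [h1, card_bot] at hKc
    exact absurd hKc (by decide +kernel)
  refine ⟨?_, fun L hL => ?_⟩
  · intro h
    rw [h, card_top, hcard] at hKc
    exact absurd hKc (by decide +kernel)
  have hKL := hL.le
  -- the normal closure
  obtain ⟨N, hNd⟩ : ∃ N : Subgroup G, N = closure {x | ∃ l ∈ L, ∃ k ∈ K, x = l * k * l⁻¹} := ⟨_, rfl⟩
  have hgen : ∀ l ∈ L, ∀ k ∈ K, l * k * l⁻¹ ∈ N := fun l hl k hk => by
    rw [hNd]
    exact subset_closure ⟨l, hl, k, hk, rfl⟩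
  have hKN : K ≤ N := fun k hk => by
    have h := hgen 1 L.one_mem k hk
    rwa [one_mul, inv_one, mul_one] at h
  have hNL : N ≤ L := by
    rw [hNd, closure_le]
    rintro _ ⟨l, hl, k, hk, rfl⟩
    exact L.mul_mem (L.mul_mem hl (hKL hk)) (L.inv_mem hl)
  have hLN : ∀ l ∈ L, ∀ x ∈ N, l * x * l⁻¹ ∈ N := by
    intro l hl x hx
    rw [hNd] at hx
    induction hx using closure_induction with
    | mem x h =>
      obtain ⟨m, hm, k, hk, rfl⟩ := h
      have h2 := hgen (l * m) (L.mul_mem hl hm) k hk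
      have h3 : l * m * k * (l * m)⁻¹ = l * (m * k * m⁻¹) * l⁻¹ := by group
      rwa [h3] at h2
    | one => rw [mul_one, mul_inv_cancel]; exact N.one_mem
    | mul x y _ _ h1 h2 =>
      have h3 : l * (x * y) * l⁻¹ = (l * x * l⁻¹) * (l * y * l⁻¹) := by group
      rw [h3]
      exact N.mul_mem h1 h2
    | inv x _ h1 =>
      have h3 : l * x⁻¹ * l⁻¹ = (l * x * l⁻¹)⁻¹ := by group
      rw [h3]
      exact N.inv_mem h1
  -- `N` is simple
  have hsimple : IsSimpleGroup ↥N := by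
    obtain ⟨a, ha, b, hb, hab⟩ := hna
    have hnt : Nontrivial ↥N := ⟨⟨a, hKN ha⟩, 1, fun h => hab (by
      have h1 : a = 1 := congrArg Subtype.val h
      rw [h1, one_mul, mul_one])⟩
    refine { eq_bot_or_eq_top_of_normal := fun M hM => ?_ }
    by_cases hb : M = ⊥
    · exact Or.inl hb
    right
    have hM' : ∀ n ∈ N, ∀ x ∈ M.map N.subtype, n * x * n⁻¹ ∈ M.map N.subtype := by
      rintro n hn _ ⟨y, hy, rfl⟩
      exact ⟨⟨n, hn⟩ * y * ⟨n, hn⟩⁻¹, hM.conj_mem y hy ⟨n, hn⟩, rfl⟩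
    have hMb : M.map N.subtype ≠ ⊥ := fun h => hb ((map_eq_bot_iff_of_injective _ N.subtype_injective).1 h)
    have key : ∀ l ∈ L, ∀ k ∈ K, l * k * l⁻¹ ∈ M.map N.subtype := by
      intro l hl k hk
      have h1 := le_of_inv hcard ho hr hKs hKc hC ((M.map N.subtype).comap (MulAut.conj l).toMonoidHom) (by
        intro k hk x hx
        rw [mem_comap] at hx ⊢
        have h2 := hM' (l * k * l⁻¹) (hgen l hl k hk) _ hx
        have h3 : l * k * l⁻¹ * ((MulAut.conj l).toMonoidHom x) * (l * k * l⁻¹)⁻¹ =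
            (MulAut.conj l).toMonoidHom (k * x * k⁻¹) := by
          show l * k * l⁻¹ * (l * x * l⁻¹) * (l * k * l⁻¹)⁻¹ = l * (k * x * k⁻¹) * l⁻¹
          group
        rwa [h3] at h2) (by
        intro h
        apply hMb
        rw [eq_bot_iff]
        intro x hx
        have h2 : l⁻¹ * x * l ∈ (M.map N.subtype).comap (MulAut.conj l).toMonoidHom := by
          rw [mem_comap]
          show l * (l⁻¹ * x * l) * l⁻¹ ∈ _
          have h3 : l * (l⁻¹ * x * l) * l⁻¹ = x := by group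
          rwa [h3]
        rw [h, mem_bot] at h2
        have h3 : x = l * (l⁻¹ * x * l) * l⁻¹ := by group
        rw [mem_bot, h3, h2, mul_one, mul_inv_cancel])
      exact h1 hk
    have h2 : N ≤ M.map N.subtype := by
      conv_lhs => rw [hNd]
      rw [closure_le]
      rintro _ ⟨l, hl, k, hk, rfl⟩
      exact key l hl k hk
    rw [eq_top_iff]
    rintro x -
    obtain ⟨y, hy, hyx⟩ := h2 x.2
    have h3 : y = x := Subtype.ext hyx
    rw [← h3]
    exact hy
  have hmem : Nat.card ↥N ∈ o_b := by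
    obtain ⟨a, ha, b, hb, hab⟩ := hna
    refine ho ↥N hsimple (fun h => hab ?_) (by rw [← hcard]; exact card_subgroup_dvd_card N)
    exact congrArg Subtype.val (h ⟨a, hKN ha⟩ ⟨b, hKN hb⟩)
  rcases big _ hmem (by rw [← hKc]; exact card_dvd_of_le hKN) with h1 | h1
  · -- `N = K`
    exfalso
    have h2 : K = N := eq_of_le_of_card_ge hKN (by rw [h1, hKc])
    apply hL.not_ge
    intro l hl
    have hlK : ∀ k ∈ K, l * k * l⁻¹ ∈ K := fun k hk => by
      have h3 := hLN l hl k (hKN hk)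
      rwa [← h2] at h3
    have hlK' : ∀ k ∈ K, l⁻¹ * k * l ∈ K := fun k hk => by
      have h3 := hLN l⁻¹ (L.inv_mem hl) k (hKN hk)
      rwa [← h2, inv_inv] at h3
    obtain ⟨c, hc⟩ := hinn
      { toFun := fun x => ⟨l * x * l⁻¹, hlK x x.2⟩
        invFun := fun x => ⟨l⁻¹ * x * l, hlK' x x.2⟩
        left_inv := fun x => Subtype.ext (by show l⁻¹ * (l * x * l⁻¹) * l = x; group)
        right_inv := fun x => Subtype.ext (by show l * (l⁻¹ * x * l) * l⁻¹ = x; group)
        map_mul' := fun x y => Subtype.ext (by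
          show l * (x * y) * l⁻¹ = l * x * l⁻¹ * (l * y * l⁻¹); group) }
    have h3 : (c : G)⁻¹ * l ∈ centralizer (K : Set G) := by
      rw [mem_centralizer_iff]
      intro k hk
      have h4 := congrArg (fun φ : MulAut ↥K => ((φ ⟨k, hk⟩ : ↥K) : G)) hc
      have h5 : l * k * l⁻¹ = c * k * (c : G)⁻¹ := h4
      calc k * ((c : G)⁻¹ * l) = (c : G)⁻¹ * (c * k * (c : G)⁻¹) * l := by group
        _ = (c : G)⁻¹ * (l * k * l⁻¹) * l := by rw [h5]
        _ = (c : G)⁻¹ * l * k := by group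
    rw [hC, mem_bot] at h3
    have h4 : l = c := by
      calc l = (c : G) * ((c : G)⁻¹ * l) := by group
        _ = c := by rw [h3, mul_one]
    rw [h4]
    exact c.2
  · have h2 : N = ⊤ := eq_top_of_card_eq _ (by rw [h1, hcard])
    rw [h2, top_le_iff] at hNL
    exact hNL

end Cfsg.Agent.H843.FiMax
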